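import Cfsg.Agent.H566.RC.Dia
import Cfsg.Agent.H198.TwComp
import Cfsg.Agent.H256.RC.TwK

/-!
# S3510, triality type (iii): base lemmas (helper256)

* `BQ` : the fixed field of a field automorphism of order three;
* `tc_dia`, `tc_fG`, `dia_norm`, `dia_assoc`, `dia_polar` : the twisted composition `dia τ`;
* `NT`, `Z1` : fixed spaces of automorphisms have dimension at most four.
-/

set_option autoImplicit false

namespace Cfsg.Agent.H256.RC

open Module QuadraticMap Cfsg.Agent.LieClassical.OrthCore Cfsg.Agent.LieClassical.OrthTrans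
  Cfsg.Agent.LieClassical.OrthSimple Cfsg.Agent.ClassicalGeometry.OrthAut1
  Cfsg.Agent.ClassicalGeometry.OrthSemi Cfsg.Agent.H198.Classes
  Cfsg.Agent.LieClassical.QuadForms Cfsg.Agent.H198.ClassesPlus
  Cfsg.Agent.ClassicalGeometry.TrialityOct Cfsg.Agent.ClassicalGeometry.Triality
  Cfsg.Agent.ClassicalGeometry.TrialitySpaces Cfsg.Agent.H198.TriBase Cfsg.Agent.H198.TriAut
  Cfsg.Agent.H198.TriDia Cfsg.Agent.H198.TriTC Cfsg.Agent.H198.TwComp

universe u

/-! ### the fixed field -/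

theorem BQ {F : Type u} [Field F] [Finite F] {s : F ≃+* F} (h3 : ∀ a, s (s (s a)) = a) (hne : s ≠ RingEquiv.refl F) :
    ∃ q0 : ℕ, 2 ≤ q0 ∧ Nat.card F = q0 ^ 3 ∧ IsPrimePow q0 ∧ (∀ a : F, s a = a ↔ a ^ q0 = a) ∧
      ((∀ a : F, s a = a ^ q0) ∨ ∀ a : F, s a = a ^ (q0 ^ 2)) := by
  obtain ⟨p, hp⟩ := CharP.exists F
  have hpp : p.Prime := (CharP.char_is_prime_or_zero F p).resolve_right
    (fun h0 => CharP.char_ne_zero_of_finite F p h0)
  have : Fact p.Prime := ⟨hpp⟩
  let _ : Algebra (ZMod p) F := ZMod.algebra F p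
  have : Module.Finite (ZMod p) F := Module.Finite.of_finite
  set n := Module.finrank (ZMod p) F with hn
  have hn0 : 0 < n := Module.finrank_pos
  have hcard : Nat.card F = p ^ n := by
    have h1 := Module.natCard_eq_pow_finrank (K := ZMod p) (V := F)
    rwa [Nat.card_zmod] at h1
  -- `s` as an algebra automorphism
  let s' : F ≃ₐ[ZMod p] F := AlgEquiv.ofRingEquiv (f := s) (fun x => by
    obtain ⟨k, rfl⟩ := ZMod.intCast_surjective x
    rw [map_intCast, map_intCast])
  obtain ⟨⟨j, hj⟩, hsj⟩ := (FiniteField.bijective_frobeniusAlgEquivOfAlgebraic_pow (ZMod p) F).2 s'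
  have hpow : ∀ (k : ℕ) (a : F), (FiniteField.frobeniusAlgEquivOfAlgebraic (ZMod p) F ^ k) a = a ^ p ^ k := by
    intro k a
    rw [AlgEquiv.coe_pow, FiniteField.coe_frobeniusAlgEquivOfAlgebraic_iterate, ZMod.card]
  have hs : ∀ a, s a = a ^ p ^ j := by
    intro a
    rw [← hpow]
    exact (congrArg (fun z : F ≃ₐ[ZMod p] F => z a) hsj).symm
  have hord : orderOf (FiniteField.frobeniusAlgEquivOfAlgebraic (ZMod p) F) = n :=
    FiniteField.orderOf_frobeniusAlgEquivOfAlgebraic (ZMod p) F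
  have h3j : FiniteField.frobeniusAlgEquivOfAlgebraic (ZMod p) F ^ (3 * j) = 1 := by
    ext a
    rw [hpow, AlgEquiv.one_apply]
    have h1 := h3 a
    rw [hs, hs, hs, ← pow_mul, ← pow_mul] at h1
    conv_rhs => rw [← h1]
    congr 1
    ring
  have hdvd : n ∣ 3 * j := by rw [← hord]; exact orderOf_dvd_of_pow_eq_one h3j
  have hj0 : j ≠ 0 := by
    rintro rfl
    apply hne
    ext a
    rw [hs, pow_zero, pow_one, RingEquiv.refl_apply]
  obtain ⟨k, hk⟩ := hdvd
  have hj' : j < n := hj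
  have hfin : ∀ a : F, a ^ Nat.card F = a := fun a => by
    have := Fintype.ofFinite F
    rw [Nat.card_eq_fintype_card]; exact FiniteField.pow_card a
  have hk2 : k = 1 ∨ k = 2 := by
    have h1 : k < 3 := by
      by_contra h
      push Not at h
      have : n * 3 ≤ n * k := Nat.mul_le_mul_left n h
      omega
    have h2 : k ≠ 0 := by
      rintro rfl
      omega
    omega
  obtain ⟨m, hm, hjm⟩ : ∃ m, n = 3 * m ∧ (j = m ∨ j = 2 * m) := by
    rcases hk2 with rfl | rfl
    · exact ⟨j, by omega, Or.inl rfl⟩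
    · have : 3 ∣ n := by
        have h1 : 3 ∣ n * 2 := ⟨j, by omega⟩
        exact (Nat.Coprime.dvd_of_dvd_mul_right (by norm_num) h1)
      obtain ⟨m, hm⟩ := this
      exact ⟨m, hm, Or.inr (by omega)⟩
  have hm0 : m ≠ 0 := by
    rintro rfl
    omega
  have hc3 : Nat.card F = (p ^ m) ^ 3 := by rw [hcard, hm, ← pow_mul, mul_comm]
  have hcase : (∀ a : F, s a = a ^ (p ^ m)) ∨ ∀ a : F, s a = a ^ ((p ^ m) ^ 2) := by
    rcases hjm with rfl | rfl
    · exact Or.inl hs
    · refine Or.inr fun a => ?_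
      rw [hs, ← pow_mul, mul_comm]
  refine ⟨p ^ m, ?_, hc3, ?_, ?_, hcase⟩
  · calc 2 ≤ p := hpp.two_le
      _ = p ^ 1 := (pow_one p).symm
      _ ≤ p ^ m := Nat.pow_le_pow_right hpp.pos (Nat.pos_of_ne_zero hm0)
  · exact ⟨p, m, hpp.prime, Nat.pos_of_ne_zero hm0, rfl⟩
  · intro a
    rcases hcase with h | h
    · rw [h]
    · constructor
      · intro ha
        have h1 : s (s a) = a := by rw [ha, ha]
        rw [h, h, ← pow_mul] at h1
        have h2 : a ^ ((p ^ m) ^ 2 * (p ^ m) ^ 2) = a ^ (p ^ m) := by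
          have h4 : (p ^ m) ^ 2 * (p ^ m) ^ 2 = Nat.card F * p ^ m := by rw [hc3]; ring
          rw [h4, pow_mul, hfin]
        rw [← h2]
        exact h1
      · intro ha
        rw [h, pow_two, pow_mul, ha, ha]

/-! ### the twisted composition -/

section dia

variable {F : Type u} [Field F] {τ : G8 F} {σ : F ≃+* F}

theorem tau_t3 (h3 : τ ^ 3 = 1) (x : V8 F) : τ.1 (τ.1 (τ.1 x)) = x := by
  have h1 := congrArg (fun z : G8 F => z.1 x) h3
  rw [pow_three] at h1
  exact h1

theorem tau_inv (h3 : τ ^ 3 = 1) (x : V8 F) : τ⁻¹.1 x = τ.1 (τ.1 x) := by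
  have h1 : τ⁻¹.1 (τ.1 (τ.1 (τ.1 x))) = τ.1 (τ.1 x) := τ.1.symm_apply_apply _
  rwa [tau_t3 h3] at h1

theorem tau_sigma3 (hs : IsSS (plusForm 4 F) σ 1 τ.1) (h3 : τ ^ 3 = 1) (a : F) : σ (σ (σ a)) = a := by
  have h1 := tau_t3 h3 (a • one8 F)
  rw [hs.smul, hs.smul, hs.smul, tau_t3 h3] at h1
  have h2 : (σ (σ (σ a)) - a) • one8 F = 0 := by rw [sub_smul, h1, sub_self]
  rcases smul_eq_zero.1 h2 with h3' | h3'
  · exact sub_eq_zero.1 h3'
  · exfalso
    have h5 := norm_one8 (F := F)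
    rw [h3', QuadraticMap.map_zero] at h5
    exact zero_ne_one h5

theorem dia_eq (hτ : TriS τ τ τ) (h3 : τ ^ 3 = 1) (u w : V8 F) :
    dia τ u w = omul (oconj (τ.1 (τ.1 u))) (oconj (τ.1 w)) := by
  rw [dia, tau_inv h3, aut_oconj hτ, aut_oconj hτ, aut_oconj hτ]

theorem polar_tau (hs : IsSS (plusForm 4 F) σ 1 τ.1) (x y : V8 F) :
    polar (plusForm 4 F) (τ.1 x) (τ.1 y) = σ (polar (plusForm 4 F) x y) := by
  rw [hs.polar, one_mul]

/-- `dia τ` is a twisted symmetric composition -/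
theorem tc_dia (hτ : TriS τ τ τ) (h3 : τ ^ 3 = 1) (hs : IsSS (plusForm 4 F) σ 1 τ.1) :
    TC (plusForm 4 F) σ (dia τ) := by
  have hσ := tau_sigma3 hs h3
  have hσ2 : ∀ k, σ (σ k) = σ.symm k := fun k => by
    apply σ.injective
    rw [hσ, RingEquiv.apply_symm_apply]
  have hn : ∀ x, plusForm 4 F (τ.1 x) = σ (plusForm 4 F x) := fun x => by rw [hs.form, one_mul]
  refine ⟨fun a b c => ?_, fun a b c => ?_, fun k a b => ?_, fun k a b => ?_, fun a b => ?_, fun a b => ?_, hσ⟩
  · rw [dia_eq hτ h3, dia_eq hτ h3, dia_eq hτ h3, hs.add, hs.add, oconj_add, add_omul]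
  · rw [dia_eq hτ h3, dia_eq hτ h3, dia_eq hτ h3, hs.add, oconj_add, omul_add]
  · rw [dia_eq hτ h3, dia_eq hτ h3, hs.smul, hs.smul, oconj_smul, smul_omul, hσ2]
  · rw [dia_eq hτ h3, dia_eq hτ h3, hs.smul, oconj_smul, omul_smul]
  · have e1 : oconj (τ.1 (τ.1 (dia τ a b))) = omul b (τ.1 a) := by
      rw [dia_eq hτ h3, hτ, hτ, aut_oconj hτ, aut_oconj hτ, tau_t3 h3, aut_oconj hτ, aut_oconj hτ, tau_t3 h3,
        oconj_omul, oconj_oconj, oconj_oconj]
    rw [dia_eq hτ h3 (dia τ a b) a, e1, omul_omul_oconj, hn]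
  · have e1 : oconj (τ.1 (dia τ b a)) = omul (τ.1 (τ.1 a)) b := by
      rw [dia_eq hτ h3, hτ, aut_oconj hτ, aut_oconj hτ, tau_t3 h3, oconj_omul, oconj_oconj, oconj_oconj]
    rw [dia_eq hτ h3 a (dia τ b a), e1, oconj_omul_omul, hn, hn, hσ2]

/-- associativity of the polar form -/
theorem dia_assoc (hτ : TriS τ τ τ) (h3 : τ ^ 3 = 1) (hs : IsSS (plusForm 4 F) σ 1 τ.1) (u w z : V8 F) :
    polar (plusForm 4 F) (dia τ u w) z = σ (σ (polar (plusForm 4 F) u (dia τ w z))) := by
  have e1 : τ.1 (τ.1 (dia τ w z)) = omul (oconj (τ.1 w)) (oconj z) := by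
    rw [dia_eq hτ h3, hτ, hτ, aut_oconj hτ, aut_oconj hτ, tau_t3 h3, aut_oconj hτ, aut_oconj hτ, tau_t3 h3]
  have e2 : ∀ x y : V8 F, polar (plusForm 4 F) (oconj x) (oconj y) = polar (plusForm 4 F) x y := by
    intro x y
    simp only [QuadraticMap.polar]
    rw [← oconj_add, norm_oconj, norm_oconj, norm_oconj]
  rw [← polar_tau hs, ← polar_tau hs, e1, dia_eq hτ h3, polar_omul, oconj_oconj, ← e2, oconj_omul, oconj_oconj]

end dia

section fG

variable {F : Type u} [Field F]

theorem fG_cube {s : F ≃+* F} (h3 : ∀ a, s (s (s a)) = a) : (fG s) ^ 3 = 1 := by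
  apply Subtype.ext
  apply Equiv.ext
  intro v
  rw [pow_three]
  show (fG s).1 ((fG s).1 ((fG s).1 v)) = v
  funext i
  rw [fG_apply, fG_apply, fG_apply, h3]

theorem tc_fG {s : F ≃+* F} (h3 : ∀ a, s (s (s a)) = a) : TC (plusForm 4 F) s (dia (fG s)) :=
  tc_dia (tri_fG s) (fG_cube h3) (isSS_fP s)

theorem dia_norm {s : F ≃+* F} (u w : V8 F) :
    plusForm 4 F (dia (fG s) u w) = s.symm (plusForm 4 F u) * s (plusForm 4 F w) := by
  have h1 : IsSS (plusForm 4 F) s 1 (fG s).1 := isSS_fP s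
  have h2 : IsSS (plusForm 4 F) s.symm (s.symm 1⁻¹) (fG s)⁻¹.1 := h1.inv
  rw [dia, norm_omul, h1.form, h2.form, norm_oconj, norm_oconj, inv_one, map_one, one_mul, one_mul]

theorem dia_polar {s : F ≃+* F} (h3 : ∀ a, s (s (s a)) = a) (u v w : V8 F) :
    polar (plusForm 4 F) (dia (fG s) v w) u = s (polar (plusForm 4 F) (dia (fG s) u v) w) := by
  have h1 := dia_assoc (tri_fG s) (fG_cube h3) (isSS_fP s) u v w
  rw [h1, h3, polar_comm]

end fG

/-! ### fixed spaces -/

section perp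

variable {K : Type u} {V : Type*} [Field K] [AddCommGroup V] [Module K V] [FiniteDimensional K V] {Q : QuadraticForm K V}

/-- orthogonal subspaces -/
theorem perp_finrank_le (hQ : Nondeg Q) {W P : Submodule K V} (hP : ∀ x ∈ P, ∀ y ∈ W, polar Q x y = 0) :
    finrank K P + finrank K W ≤ finrank K V := by
  obtain ⟨U, hU⟩ := Submodule.exists_isCompl W
  let f : P →ₗ[K] Module.Dual K U :=
    ((Submodule.subtype U).dualMap).comp ((polarBilin Q).comp (Submodule.subtype P))
  have hf : Function.Injective f := by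
    rw [injective_iff_map_eq_zero]
    intro x hx
    apply Subtype.ext
    apply hQ
    intro y
    obtain ⟨k, hk, c, hc, rfl⟩ : ∃ k ∈ W, ∃ c ∈ U, k + c = y := by
      have : y ∈ W ⊔ U := by rw [hU.sup_eq_top]; exact Submodule.mem_top
      exact Submodule.mem_sup.1 this
    have e1 : polar Q (x : V) c = 0 := congrArg (fun w : Module.Dual K U => w ⟨c, hc⟩) hx
    rw [polar_add_right, e1, hP _ x.2 k hk, add_zero]
  have h1 := LinearMap.finrank_le_finrank_of_injective hf
  rw [Subspace.dual_finrank_eq] at h1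
  have h2 := Submodule.finrank_add_eq_of_isCompl hU
  omega

/-- the orthogonal space -/
def prp (Q : QuadraticForm K V) (W : Submodule K V) : Submodule K V where
  carrier := {x | ∀ y ∈ W, polar Q x y = 0}
  zero_mem' := fun y _ => polar_zero_left Q y
  add_mem' := fun {x z} hx hz y hy => by rw [polar_add_left, hx y hy, hz y hy, add_zero]
  smul_mem' := fun k x hx y hy => by rw [polar_smul_left, hx y hy, smul_zero]

omit [FiniteDimensional K V] in
theorem mem_prp {W : Submodule K V} {x : V} : x ∈ prp Q W ↔ ∀ y ∈ W, polar Q x y = 0 := Iff.rfl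

/-- a semilinear injection of `W` into its orthogonal space -/
theorem two_finrank_le (hQ : Nondeg Q) (W : Submodule K V) (f : V → V) (ψ : K ≃+* K)
    (ha : ∀ x y, f (x + y) = f x + f y) (hs : ∀ (k : K) x, f (k • x) = ψ k • f x)
    (hi : ∀ x ∈ W, f x = 0 → x = 0) (hp : ∀ x ∈ W, ∀ y ∈ W, polar Q (f x) y = 0) :
    2 * finrank K W ≤ finrank K V := by
  have h1 : finrank K W ≤ finrank K (prp Q W) :=
    semi_finrank_le (K := K) (ψ := ψ) (fun x : W => (⟨f x, hp x x.2⟩ : prp Q W))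
      (fun x y => Subtype.ext (ha _ _)) (fun k x => Subtype.ext (hs _ _))
      (fun x hx => Subtype.ext (hi x x.2 (congrArg Subtype.val hx)))
  have h2 := perp_finrank_le hQ (W := W) (P := prp Q W) (fun x hx => hx)
  omega

end perp

section NT

variable {F : Type u} [Field F]

theorem AutD_norm {τ : G8 F} {c : V8 F ≃ₗ[F] V8 F} (hc : c ∈ AutD τ) (x : V8 F) :
    plusForm 4 F (c x) = plusForm 4 F x := E_le_O hc.1 x

theorem AutD_polar {τ : G8 F} {c : V8 F ≃ₗ[F] V8 F} (hc : c ∈ AutD τ) (x y : V8 F) :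
    polar (plusForm 4 F) (c x) (c y) = polar (plusForm 4 F) x y := by
  simp only [QuadraticMap.polar]
  rw [← map_add, AutD_norm hc, AutD_norm hc, AutD_norm hc]

/-- a short root element (more generally an element whose fixed space is orthogonal to a nonsingular vector) is not
centralised by a triality automorphism unless the fixed space has dimension at most four -/
theorem NT {τ : G8 F} (hτ : TriS τ τ τ) (h3 : τ ^ 3 = 1) {c : V8 F ≃ₗ[F] V8 F} (hc : c ∈ AutD τ) {b : V8 F}
    (hb : plusForm 4 F b ≠ 0) (hperp : ∀ v, c v = v → polar (plusForm 4 F) v b = 0) :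
    finrank F (Module.End.eigenspace (c : V8 F →ₗ[F] V8 F) 1) ≤ 4 := by
  obtain ⟨σ, k, hs⟩ := τ.2
  have hk := aut_mult hτ hs
  subst hk
  have ht := tc_dia hτ h3 hs
  have hmem : ∀ x, x ∈ Module.End.eigenspace (c : V8 F →ₗ[F] V8 F) 1 ↔ c x = x := by
    intro x
    rw [Module.End.mem_eigenspace_iff, one_smul]
    rfl
  have h8 : finrank F (V8 F) = 8 := by
    rw [Module.finrank_fintype_fun_eq_card]
    rfl
  have h2 := two_finrank_le (Cfsg.Agent.ClassicalGeometry.Triality.nondeg8 (F := F)) (Module.End.eigenspace (c : V8 F →ₗ[F] V8 F) 1)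
    (fun x => dia τ x b) σ.symm (fun x y => ht.add_left x y b) (fun k x => ht.smul_left k x b) ?_ ?_
  · rw [h8] at h2
    exact le_of_mul_le_mul_left (show 2 * finrank F (Module.End.eigenspace (c : V8 F →ₗ[F] V8 F) 1) ≤ 2 * 4 from h2)
      two_pos
  · intro x _ hx
    have h1 := ht.right b x
    beta_reduce at hx
    rw [hx, ht.zero_right] at h1
    refine (smul_eq_zero.1 h1.symm).resolve_left ?_
    intro h0
    exact hb (σ.symm.injective (by rw [h0, map_zero]))
  · intro x hx y hy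
    rw [hmem] at hx hy
    change polar (plusForm 4 F) (dia τ x b) y = 0
    have e1 := dia_assoc hτ h3 hs y x b
    have e2 : polar (plusForm 4 F) (dia τ y x) b = 0 := hperp _ (by rw [hc.2, hx, hy])
    rw [e2] at e1
    have e3 : σ (σ (polar (plusForm 4 F) y (dia τ x b))) = σ (σ 0) := by rw [← e1, map_zero, map_zero]
    rw [polar_comm]
    exact σ.injective (σ.injective e3)

/-- `n x = y + z`, `y` fixed, `z` orthogonal to the fixed vectors -/
theorem fix_dec {c : V8 F ≃ₗ[F] V8 F} {n : ℕ} (hcn : c ^ n = 1)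
    (hp : ∀ u v, polar (plusForm 4 F) (c u) (c v) = polar (plusForm 4 F) u v) (x : V8 F) :
    ∃ y z, c y = y ∧ (n : F) • x = y + z ∧ ∀ w, c w = w → polar (plusForm 4 F) w z = 0 := by
  set C : Module.End F (V8 F) := (c : V8 F →ₗ[F] V8 F) with hC
  have hCi : ∀ (i : ℕ) (v : V8 F), (C ^ i) v = (c ^ i) v := by
    intro i
    induction i with
    | zero => intro v; rfl
    | succ i ih => intro v; rw [pow_succ, pow_succ]; exact ih (c v)
  have hCn : C ^ n = 1 := by
    apply LinearMap.ext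
    intro v
    rw [hCi, hcn]
    rfl
  have h1 : (C - 1) * ∑ i ∈ Finset.range n, C ^ i = 0 := by rw [mul_geom_sum, hCn, sub_self]
  set S : Module.End F (V8 F) := ∑ i ∈ Finset.range n, C ^ i with hS
  have h2 : c (S x) = S x := by
    have h3 := congrArg (fun z : Module.End F (V8 F) => z x) h1
    have h4 : (C - 1) (S x) = 0 := h3
    rw [LinearMap.sub_apply] at h4
    exact sub_eq_zero.1 h4
  refine ⟨S x, (n : F) • x - S x, h2, by abel, fun w hw => ?_⟩
  have hwi : ∀ i : ℕ, (c ^ i) w = w := by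
    intro i
    induction i with
    | zero => rfl
    | succ i ih => rw [pow_succ]; change (c ^ i) (c w) = w; rw [hw, ih]
  have hpi : ∀ (i : ℕ) (u v : V8 F), polar (plusForm 4 F) ((c ^ i) u) ((c ^ i) v) = polar (plusForm 4 F) u v := by
    intro i
    induction i with
    | zero => intro u v; rfl
    | succ i ih => intro u v; rw [pow_succ]; exact (ih (c u) (c v)).trans (hp u v)
  have h5 : polar (plusForm 4 F) w (S x) = (n : F) * polar (plusForm 4 F) w x := by
    have h6 : polarBilin (plusForm 4 F) w (S x) = ∑ i ∈ Finset.range n, polarBilin (plusForm 4 F) w ((C ^ i) x) := by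
      rw [hS, LinearMap.sum_apply, map_sum]
    have h7 : ∀ i ∈ Finset.range n, polarBilin (plusForm 4 F) w ((C ^ i) x) = polar (plusForm 4 F) w x := by
      intro i _
      change polar (plusForm 4 F) w ((C ^ i) x) = _
      rw [hCi]
      conv_lhs => rw [← hwi i]
      exact hpi i w x
    rw [Finset.sum_congr rfl h7, Finset.sum_const, Finset.card_range, nsmul_eq_mul] at h6
    exact h6
  rw [sub_eq_add_neg, polar_add_right, polar_neg_right, polar_smul_right, h5, smul_eq_mul, add_neg_cancel]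

/-- an element of order prime to the characteristic, all of whose vectors orthogonal to the fixed vectors are singular -/
theorem exists_ns {c : V8 F ≃ₗ[F] V8 F} {n : ℕ} (hn : (n : F) ≠ 0) (hcn : c ^ n = 1) (hc1 : c ≠ 1)
    (hp : ∀ u v, polar (plusForm 4 F) (c u) (c v) = polar (plusForm 4 F) u v) :
    ∃ b, plusForm 4 F b ≠ 0 ∧ ∀ v, c v = v → polar (plusForm 4 F) v b = 0 := by
  by_contra hcon
  push Not at hcon
  apply hc1
  have hs : ∀ z, (∀ w, c w = w → polar (plusForm 4 F) w z = 0) → plusForm 4 F z = 0 := by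
    intro z hz
    by_contra h0
    obtain ⟨v, hv, hvz⟩ := hcon z h0
    exact hvz (hz v hv)
  have hz0 : ∀ z, (∀ w, c w = w → polar (plusForm 4 F) w z = 0) → z = 0 := by
    intro z hz
    apply Cfsg.Agent.ClassicalGeometry.Triality.nondeg8
    intro v
    obtain ⟨y, z', hy, hv, hz'⟩ := fix_dec hcn hp v
    have h1 : plusForm 4 F (z + z') = 0 := hs _ (fun w hw => by rw [polar_add_right, hz w hw, hz' w hw, add_zero])
    have h2 : polar (plusForm 4 F) z z' = 0 := by
      rw [QuadraticMap.polar, h1, hs z hz, hs z' hz', sub_zero, sub_zero]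
    have h3 : (n : F) * polar (plusForm 4 F) z v = 0 := by
      rw [← smul_eq_mul, ← polar_smul_right, hv, polar_add_right, h2, add_zero, polar_comm, hz y hy]
    exact (mul_eq_zero.1 h3).resolve_left hn
  apply LinearEquiv.ext
  intro x
  obtain ⟨y, z, hy, hv, hz⟩ := fix_dec hcn hp x
  rw [hz0 z hz, add_zero] at hv
  have h1 : (n : F) • c x = (n : F) • x := by rw [← map_smul, hv, hy]
  exact smul_right_injective _ hn h1

theorem Z1 {s : F ≃+* F} (h3 : ∀ a, s (s (s a)) = a) {c : V8 F ≃ₗ[F] V8 F} (hc : c ∈ AutD (fG s))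
    {n : ℕ} (hn : (n : F) ≠ 0) (hcn : c ^ n = 1) (hc1 : c ≠ 1) :
    finrank F (Module.End.eigenspace (c : V8 F →ₗ[F] V8 F) 1) ≤ 4 := by
  obtain ⟨b, hb, hperp⟩ := exists_ns hn hcn hc1 (AutD_polar hc)
  exact NT (tri_fG s) (fG_cube h3) hc hb hperp

end NT

end Cfsg.Agent.H256.RC
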