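import Cfsg.Agent.H256.RC.BaseCh
import Cfsg.Agent.H256.RC.ZFourK

/-!
# S3510, triality type (iii): `ZN4` (helper256)
-/

set_option autoImplicit false

namespace Cfsg.Agent.H256.RC

open Module QuadraticMap Cfsg.Agent.LieClassical.OrthCore Cfsg.Agent.LieClassical.OrthTrans
  Cfsg.Agent.LieClassical.OrthSimple Cfsg.Agent.ClassicalGeometry.OrthAut1
  Cfsg.Agent.ClassicalGeometry.OrthSemi Cfsg.Agent.H198.Classes
  Cfsg.Agent.LieClassical.QuadForms Cfsg.Agent.H198.ClassesPlus
  Cfsg.Agent.ClassicalGeometry.TrialityOct Cfsg.Agent.ClassicalGeometry.Triality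
  Cfsg.Agent.ClassicalGeometry.TrialitySpaces Cfsg.Agent.H198.TriBase Cfsg.Agent.H198.TriAut
  Cfsg.Agent.H198.TriDia Cfsg.Agent.H198.TriTC Cfsg.Agent.H198.TwComp

universe u

variable {F : Type u} [Field F]

/-- an extension of `s` to the algebraic closure acting on the `l`-th roots of unity as the `k`-th power,
`k = q₀` or `q₀ k = 1` modulo `l` -/
theorem exists_phi [Finite F] {s : F ≃+* F} {q0 : ℕ} (hq0 : IsPrimePow q0) (hq : Nat.card F = q0 ^ 3)
    (hs : (∀ a : F, s a = a ^ q0) ∨ ∀ a : F, s a = a ^ (q0 ^ 2)) {l : ℕ} (hl : l.Prime) (hlq : ¬ l ∣ q0) :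
    ∃ (φ : AlgebraicClosure F ≃+* AlgebraicClosure F) (k : ℕ),
      (∀ a, φ (algebraMap F (AlgebraicClosure F) a) = algebraMap F (AlgebraicClosure F) (s a)) ∧
      (∀ c : AlgebraicClosure F, c ^ l = 1 → φ c = c ^ k) ∧
      ((k : ZMod l) = (q0 : ZMod l) ∨ (k : ZMod l) * (q0 : ZMod l) = 1) := by
  obtain ⟨p, n, hp, hn, hpn⟩ := hq0
  have hpp : p.Prime := hp.nat_prime
  have hfin : ∀ a : F, a ^ Nat.card F = a := fun a => by
    have := Fintype.ofFinite F
    rw [Nat.card_eq_fintype_card]; exact FiniteField.pow_card a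
  have hchar : CharP F p := by
    obtain ⟨r, hr⟩ := CharP.exists F
    have hrp : r.Prime := (CharP.char_is_prime_or_zero F r).resolve_right
      (fun h0 => CharP.char_ne_zero_of_finite F r h0)
    have : Fact r.Prime := ⟨hrp⟩
    have := Fintype.ofFinite F
    obtain ⟨m, -, hm⟩ := FiniteField.card F r
    have h1 : r ∣ p := by
      have h2 : r ∣ Nat.card F := by
        rw [Nat.card_eq_fintype_card, hm]
        exact dvd_pow_self r m.pos.ne'
      rw [hq, ← hpn, ← pow_mul] at h2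
      exact hrp.dvd_of_dvd_pow h2
    rwa [(Nat.prime_dvd_prime_iff_eq hrp hpp).1 h1] at hr
  have : Fact p.Prime := ⟨hpp⟩
  have : CharP (AlgebraicClosure F) p := charP_of_injective_algebraMap (algebraMap F (AlgebraicClosure F)).injective p
  have : ExpChar (AlgebraicClosure F) p := ExpChar.prime hpp
  have : Fact l.Prime := ⟨hl⟩
  set fr : AlgebraicClosure F ≃+* AlgebraicClosure F := iterateFrobeniusEquiv (AlgebraicClosure F) p n with hfr
  have hfr' : ∀ x, fr x = x ^ q0 := by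
    intro x
    rw [hfr, iterateFrobeniusEquiv_def, hpn]
  rcases hs with hs | hs
  · exact ⟨fr, q0, fun a => by rw [hfr', hs, map_pow], fun c _ => hfr' c, Or.inl rfl⟩
  · have hcop : Nat.Coprime q0 l := ((Nat.Prime.coprime_iff_not_dvd hl).2 hlq).symm
    obtain ⟨k, hk⟩ : ∃ k : ℕ, (k : ZMod l) * (q0 : ZMod l) = 1 := by
      have h0 : (q0 : ZMod l) ≠ 0 := by
        rw [Ne, ZMod.natCast_eq_zero_iff]
        exact hlq
      refine ⟨((q0 : ZMod l)⁻¹).val, ?_⟩
      rw [ZMod.natCast_val, ZMod.cast_id, inv_mul_cancel₀ h0]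
    refine ⟨fr.symm, k, fun a => ?_, fun c hc => ?_, Or.inr hk⟩
    · rw [RingEquiv.symm_apply_eq, hfr', hs, ← map_pow, ← pow_mul]
      congr 1
      have : q0 ^ 2 * q0 = Nat.card F := by rw [hq]; ring
      rw [this, hfin]
    · rw [RingEquiv.symm_apply_eq, hfr', ← pow_mul]
      have h1 : ((k * q0 : ℕ) : ZMod l) = ((1 : ℕ) : ZMod l) := by rw [Nat.cast_mul, hk, Nat.cast_one]
      rw [ZMod.natCast_eq_natCast_iff] at h1
      have h2 : c ^ (k * q0) = c ^ 1 := by
        rw [← Nat.mod_add_div (k * q0) l, pow_add, pow_mul, hc, one_pow, mul_one]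
        conv_rhs => rw [← Nat.mod_add_div 1 l, pow_add, pow_mul, hc, one_pow, mul_one]
        rw [show k * q0 % l = 1 % l from h1]
      rw [h2, pow_one]

/-- `ZN4` : no automorphism of the twisted product has odd prime order dividing `q₀² + 1` -/
theorem ZN4 [Finite F] {s : F ≃+* F} (h3 : ∀ a, s (s (s a)) = a) (hne : s ≠ RingEquiv.refl F) {q0 : ℕ}
    (hq : Nat.card F = q0 ^ 3) {c : V8 F ≃ₗ[F] V8 F} (hc : c ∈ AutD (fG s)) {l : ℕ} (hl : l.Prime)
    (hl2 : l ≠ 2) (h1 : l ∣ q0 ^ 2 + 1) (hcl : c ^ l = 1) : c = 1 := by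
  obtain ⟨q1, hq1, hq1', hpp, -, hs⟩ := BQ h3 hne
  have hqq : q1 = q0 := by
    have : q1 ^ 3 = q0 ^ 3 := by rw [← hq1', hq]
    exact Nat.pow_left_injective (by norm_num : 3 ≠ 0) this
  subst hqq
  have hlq : ¬ l ∣ q1 := by
    intro h
    have h2 : l ∣ 1 := (Nat.dvd_add_right (h.trans (dvd_pow_self q1 two_ne_zero))).1 h1
    exact hl.one_lt.ne' (Nat.dvd_one.1 h2)
  have : Fact l.Prime := ⟨hl⟩
  obtain ⟨φ, k, hφ, hk, hka⟩ := exists_phi hpp hq hs hl hlq
  -- `l ≠ 0` in `F`
  have hlF : (l : AlgebraicClosure F) ≠ 0 := by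
    intro h0
    have h4 : (l : F) = 0 := by
      apply (algebraMap F (AlgebraicClosure F)).injective
      rw [map_natCast, map_zero, h0]
    have h5 := Fintype.ofFinite F
    obtain ⟨p, hp⟩ := CharP.exists F
    have hppr : p.Prime := (CharP.char_is_prime_or_zero F p).resolve_right
      (fun h0 => CharP.char_ne_zero_of_finite F p h0)
    have h6 : p ∣ l := (CharP.cast_eq_zero_iff F p l).1 h4
    have h7 : p = l := (Nat.prime_dvd_prime_iff_eq hppr hl).1 h6
    subst h7
    have : Fact p.Prime := ⟨hppr⟩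
    obtain ⟨m, -, hm⟩ := FiniteField.card F p
    have h8 : p ∣ Nat.card F := by
      rw [Nat.card_eq_fintype_card, hm]
      exact dvd_pow_self p m.pos.ne'
    rw [hq] at h8
    exact hlq (hppr.dvd_of_dvd_pow h8)
  obtain ⟨e, he⟩ := exists_wt hlF hk
  have hq2 : (q1 : ZMod l) * (q1 : ZMod l) = -1 := by
    have h4 : ((q1 ^ 2 + 1 : ℕ) : ZMod l) = 0 := (ZMod.natCast_eq_zero_iff _ _).2 h1
    push_cast at h4
    linear_combination h4
  have ha : (k : ZMod l) * (k : ZMod l) = -1 := by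
    rcases hka with h | h
    · rw [h, hq2]
    · have h5 : ((k : ZMod l) * k) * ((q1 : ZMod l) * q1) = 1 := by
        linear_combination ((k : ZMod l) * q1 + 1) * h
      rw [hq2] at h5
      linear_combination -h5
  have h8 : finrank (AlgebraicClosure F) (V8 (AlgebraicClosure F)) = 8 := by
    rw [Module.finrank_fintype_fun_eq_card]
    rfl
  have hN := exists_bc h3 hφ hc hcl
  have h9 := z4_K (tk_dia φ) (Cfsg.Agent.ClassicalGeometry.Triality.nondeg8 (F := AlgebraicClosure F)) h8 he hN ha hl2 hlF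
  apply LinearEquiv.ext
  intro x
  apply io_inj (K := AlgebraicClosure F)
  have h10 := exN_io (K := AlgebraicClosure F) (c : V8 F →ₗ[F] V8 F) x
  rw [h9] at h10
  exact h10.symm

end Cfsg.Agent.H256.RC
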