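import Cfsg.Agent.H256.RC.TwK

/-!
# S3510, triality type (iii): weights of an automorphism of the twisted product (helper256)

`Ei N c` : the eigenspace; `Wt φ l a e` : `e : ZMod l → K` parametrises the `l`-th roots of unity, `φ (e i) = e (a i)`.
-/

set_option autoImplicit false

namespace Cfsg.Agent.H256.RC

open Module QuadraticMap Cfsg.Agent.LieClassical.OrthCore Cfsg.Agent.LieClassical.OrthTrans

universe u v

variable {K : Type u} {V : Type v} [Field K] [AddCommGroup V] [Module K V]

/-- the eigenspace -/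
abbrev Ei (N : V →ₗ[K] V) (c : K) : Submodule K V := Module.End.eigenspace N c

theorem mem_Ei {N : V →ₗ[K] V} {c : K} {x : V} : x ∈ Ei N c ↔ N x = c • x := Module.End.mem_eigenspace_iff

/-- an isometric automorphism of the twisted product, of order dividing `l`, defined over the small field -/
structure Au3 (Q : QuadraticForm K V) (g : V → V) (m : V → V → V) (l : ℕ) (N : V →ₗ[K] V) : Prop where
  mul : ∀ a b, N (m a b) = m (N a) (N b)
  iso : ∀ a, Q (N a) = Q a
  comm : ∀ a, N (g a) = g (N a)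
  pow : N ^ l = 1

/-- the roots of unity -/
structure Wt (φ : K ≃+* K) (l : ℕ) (a : ZMod l) (e : ZMod l → K) : Prop where
  zero : e 0 = 1
  add : ∀ i j, e (i + j) = e i * e j
  inj : Function.Injective e
  phi : ∀ i, φ (e i) = e (a * i)
  surj : ∀ c : K, c ^ l = 1 → ∃ i, e i = c

variable {Q : QuadraticForm K V} {φ : K ≃+* K} {g : V → V} {m : V → V → V} {l : ℕ} {N : V →ₗ[K] V}

section au

theorem Au3.polar_map (hN : Au3 Q g m l N) (x y : V) : polar Q (N x) (N y) = polar Q x y := by
  simp only [QuadraticMap.polar]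
  rw [← map_add, hN.iso, hN.iso, hN.iso]

theorem mul_mem (h : TK Q φ g m) (hN : Au3 Q g m l N) {c d : K} {x y : V} (hx : x ∈ Ei N c) (hy : y ∈ Ei N d) :
    m x y ∈ Ei N (φ.symm c * φ d) := by
  rw [mem_Ei] at *
  rw [hN.mul, hx, hy, h.smul_left, h.smul_right, smul_smul]

theorem g_mem (h : TK Q φ g m) (hN : Au3 Q g m l N) {c : K} {x : V} (hx : x ∈ Ei N c) :
    g x ∈ Ei N (φ.symm (φ.symm (φ.symm c))) := by
  rw [mem_Ei] at *
  rw [hN.comm, hx, h.g_smul]

theorem polar_zero (hN : Au3 Q g m l N) {c d : K} {x y : V} (hx : x ∈ Ei N c) (hy : y ∈ Ei N d) (hcd : c * d ≠ 1) :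
    polar Q x y = 0 := by
  rw [mem_Ei] at *
  have h1 := hN.polar_map x y
  rw [hx, hy, polar_smul_left, polar_smul_right, smul_eq_mul, smul_eq_mul, ← mul_assoc] at h1
  have h2 : (c * d - 1) * polar Q x y = 0 := by rw [sub_mul, h1, one_mul, sub_self]
  exact (mul_eq_zero.1 h2).resolve_left (sub_ne_zero.2 hcd)

end au

section wt

variable {a : ZMod l} {e : ZMod l → K}

theorem Wt.ne (he : Wt φ l a e) (i : ZMod l) : e i ≠ 0 := by
  intro h0
  have h1 := he.add i (-i)
  rw [h0, zero_mul, add_neg_cancel, he.zero] at h1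
  exact one_ne_zero h1

theorem Wt.symm (he : Wt φ l a e) {b : ZMod l} (hb : a * b = 1) (i : ZMod l) : φ.symm (e i) = e (b * i) := by
  rw [RingEquiv.symm_apply_eq, he.phi, ← mul_assoc, hb, one_mul]

theorem Wt.mul_mem (he : Wt φ l a e) (h : TK Q φ g m) (hN : Au3 Q g m l N) {b : ZMod l} (hb : a * b = 1) {i j : ZMod l}
    {x y : V} (hx : x ∈ Ei N (e i)) (hy : y ∈ Ei N (e j)) : m x y ∈ Ei N (e (b * i + a * j)) := by
  have h1 := RC.mul_mem h hN hx hy
  rwa [he.symm hb, he.phi, ← he.add] at h1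

theorem Wt.g_mem (he : Wt φ l a e) (h : TK Q φ g m) (hN : Au3 Q g m l N) {b : ZMod l} (hb : a * b = 1) {i : ZMod l}
    {x : V} (hx : x ∈ Ei N (e i)) : g x ∈ Ei N (e (b * (b * (b * i)))) := by
  have h1 := RC.g_mem h hN hx
  rwa [he.symm hb, he.symm hb, he.symm hb] at h1

theorem Wt.polar_zero (he : Wt φ l a e) (hN : Au3 Q g m l N) {i j : ZMod l} {x y : V} (hx : x ∈ Ei N (e i))
    (hy : y ∈ Ei N (e j)) (hij : i + j ≠ 0) : polar Q x y = 0 := by
  apply RC.polar_zero hN hx hy
  rw [← he.add, ← he.zero]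
  exact fun h => hij (he.inj h)

/-- the sum of the weight spaces -/
theorem Wt.iSup_eq [IsAlgClosed K] [FiniteDimensional K V] (he : Wt φ l a e) (hl : (l : K) ≠ 0) (hN : N ^ l = 1) :
    ⨆ i, Ei N (e i) = ⊤ := by
  have hl0 : 0 < l := Nat.pos_of_ne_zero (by rintro rfl; exact hl Nat.cast_zero)
  have hs : (Polynomial.X ^ l - 1 : Polynomial K).Separable := by
    have := Polynomial.separable_X_pow_sub_C (F := K) (n := l) 1 hl one_ne_zero
    rwa [map_one] at this
  have h1 : Module.End.IsSemisimple N := by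
    refine Module.End.isSemisimple_of_squarefree_aeval_eq_zero (p := (Polynomial.X ^ l - 1 : Polynomial K)) hs.squarefree ?_
    rw [map_sub, map_pow, Polynomial.aeval_X, map_one, hN, sub_self]
  rw [← h1.iSup_eigenspace_eq_top]
  apply le_antisymm
  · exact iSup_le fun i => le_iSup (fun c => Module.End.eigenspace N c) (e i)
  · refine iSup_le fun c => ?_
    intro x hx
    by_cases hx0 : x = 0
    · rw [hx0]; exact Submodule.zero_mem _
    have h2 : ∀ n : ℕ, (N ^ n) x = c ^ n • x := by
      intro n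
      induction n with
      | zero => rw [pow_zero, pow_zero, one_smul]; rfl
      | succ n ih => rw [pow_succ, Module.End.mul_apply, Module.End.mem_eigenspace_iff.1 hx, map_smul, ih, smul_smul, pow_succ,
          mul_comm]
    have h3 := h2 l
    rw [hN] at h3
    have h4 : (c ^ l - 1) • x = 0 := by rw [sub_smul, ← h3, one_smul]; exact sub_self x
    have h5 := sub_eq_zero.1 ((smul_eq_zero.1 h4).resolve_right hx0)
    obtain ⟨i, rfl⟩ := he.surj c h5
    exact (le_iSup (fun i => Ei N (e i)) i) hx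

theorem Wt.indep (he : Wt φ l a e) (N : V →ₗ[K] V) : iSupIndep (fun i => Ei N (e i)) :=
  (Module.End.eigenspaces_iSupIndep N).comp he.inj

/-- dimension of a weight space -/
noncomputable def dd (N : V →ₗ[K] V) (e : ZMod l → K) (i : ZMod l) : ℕ := finrank K (Ei N (e i))

theorem Wt.sum_dd [NeZero l] [IsAlgClosed K] [FiniteDimensional K V] (he : Wt φ l a e) (hl : (l : K) ≠ 0)
    (hN : N ^ l = 1) : ∑ i, dd N e i = finrank K V := by
  classical
  have h1 : DirectSum.IsInternal (fun i => Ei N (e i)) :=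
    DirectSum.isInternal_submodule_of_iSupIndep_of_iSup_eq_top (he.indep N) (he.iSup_eq hl hN)
  rw [← (LinearEquiv.ofBijective (DirectSum.coeLinearMap (fun i => Ei N (e i))) h1).finrank_eq, Module.finrank_directSum]
  rfl

/-- a vector orthogonal to `E_(-i)` in `E_i` is zero -/
theorem Wt.perp [IsAlgClosed K] [FiniteDimensional K V] (he : Wt φ l a e) (hl : (l : K) ≠ 0) (hN : Au3 Q g m l N)
    (hQ : Nondeg Q) {i : ZMod l} {x : V} (hx : x ∈ Ei N (e i)) (hxy : ∀ y ∈ Ei N (e (-i)), polar Q x y = 0) : x = 0 := by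
  apply hQ
  intro y
  have hy : y ∈ ⨆ j, Ei N (e j) := by rw [he.iSup_eq hl hN.pow]; exact Submodule.mem_top
  induction hy using Submodule.iSup_induction' with
  | mem j y hy =>
    by_cases hj : i + j = 0
    · rw [eq_neg_of_add_eq_zero_right hj] at hy
      exact hxy y hy
    · exact he.polar_zero hN hx hy hj
  | zero => exact polar_zero_right Q x
  | add y z _ _ h1 h2 => rw [polar_add_right, h1, h2, add_zero]

theorem Wt.exists_dual [IsAlgClosed K] [FiniteDimensional K V] (he : Wt φ l a e) (hl : (l : K) ≠ 0)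
    (hN : Au3 Q g m l N) (hQ : Nondeg Q) {i : ZMod l} {x : V} (hx : x ∈ Ei N (e i)) (hx0 : x ≠ 0) :
    ∃ y ∈ Ei N (e (-i)), polar Q x y ≠ 0 := by
  by_contra hcon
  push Not at hcon
  exact hx0 (he.perp hl hN hQ hx hcon)

theorem Wt.dd_neg_le [IsAlgClosed K] [FiniteDimensional K V] (he : Wt φ l a e) (hl : (l : K) ≠ 0)
    (hN : Au3 Q g m l N) (hQ : Nondeg Q) (i : ZMod l) : dd N e i ≤ dd N e (-i) := by
  let f : Ei N (e i) →ₗ[K] Module.Dual K (Ei N (e (-i))) :=
    ((Submodule.subtype _).dualMap).comp ((polarBilin Q).comp (Submodule.subtype _))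
  have hf : Function.Injective f := by
    rw [injective_iff_map_eq_zero]
    intro x hx
    apply Subtype.ext
    exact he.perp hl hN hQ x.2 (fun y hy => congrArg (fun w : Module.Dual K (Ei N (e (-i))) => w ⟨y, hy⟩) hx)
  have h1 := LinearMap.finrank_le_finrank_of_injective hf
  rwa [Subspace.dual_finrank_eq] at h1

theorem Wt.dd_neg [IsAlgClosed K] [FiniteDimensional K V] (he : Wt φ l a e) (hl : (l : K) ≠ 0)
    (hN : Au3 Q g m l N) (hQ : Nondeg Q) (i : ZMod l) : dd N e (-i) = dd N e i := by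
  apply le_antisymm _ (he.dd_neg_le hl hN hQ i)
  have := he.dd_neg_le hl hN hQ (-i)
  rwa [neg_neg] at this

/-- a function on `ZMod l` which does not decrease under a multiplication is invariant -/
theorem inv_of_le [Fact l.Prime] {f : ZMod l → ℕ} {c : ZMod l} (hc : c ≠ 0) (hf : ∀ i, f i ≤ f (c * i)) (i : ZMod l) :
    f (c * i) = f i := by
  have h1 : ∀ n : ℕ, ∀ j, f j ≤ f (c ^ n * j) := by
    intro n
    induction n with
    | zero => intro j; rw [pow_zero, one_mul]
    | succ n ih => intro j; exact (ih j).trans (by have := hf (c ^ n * j); rwa [← mul_assoc, ← pow_succ'] at this)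
  apply le_antisymm _ (hf i)
  have h2 := h1 (l - 2) (c * i)
  rw [← mul_assoc, ← pow_succ] at h2
  have h3 : l - 2 + 1 = l - 1 := by
    have := (Fact.out : l.Prime).two_le
    omega
  rwa [h3, ZMod.pow_card_sub_one_eq_one hc, one_mul] at h2

theorem Wt.dd_g [Fact l.Prime] [FiniteDimensional K V] (he : Wt φ l a e)
    (h : TK Q φ g m) (hN : Au3 Q g m l N) (hQ : Nondeg Q) {b : ZMod l} (hb : a * b = 1) (i : ZMod l) :
    dd N e (b * (b * (b * i))) = dd N e i := by
  have hb0 : b ≠ 0 := by
    rintro rfl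
    rw [mul_zero] at hb
    exact zero_ne_one hb
  have h1 : ∀ j, dd N e j ≤ dd N e (b * b * b * j) := by
    intro j
    rw [mul_assoc, mul_assoc]
    exact semi_finrank_le (K := K) (ψ := φ.symm.trans (φ.symm.trans φ.symm))
      (fun x : Ei N (e j) => (⟨g x, he.g_mem h hN hb x.2⟩ : Ei N (e (b * (b * (b * j))))))
      (fun x y => Subtype.ext (h.g_add _ _)) (fun k x => Subtype.ext (h.g_smul _ _))
      (fun x hx => Subtype.ext (h.g_inj hQ (congrArg Subtype.val hx)))
  have h2 := inv_of_le (mul_ne_zero (mul_ne_zero hb0 hb0) hb0) h1 i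
  rwa [mul_assoc, mul_assoc] at h2

/-- a nonzero weight vector is singular -/
theorem Wt.sing (he : Wt φ l a e) (hN : Au3 Q g m l N) {i : ZMod l} (hi : 2 * i ≠ 0) {x : V} (hx : x ∈ Ei N (e i)) :
    Q x = 0 := by
  have h1 : N x = e i • x := mem_Ei.1 hx
  have h2 := hN.iso x
  rw [h1, QuadraticMap.map_smul, smul_eq_mul, ← he.add, ← two_mul] at h2
  have h3 : (e (2 * i) - 1) * Q x = 0 := by rw [sub_mul, h2, one_mul, sub_self]
  refine (mul_eq_zero.1 h3).resolve_left (sub_ne_zero.2 ?_)
  rw [← he.zero]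
  exact fun h0 => hi (he.inj h0)

end wt

/-- `u ⋄ A ≤ C`, `A` nondegenerate: `dim A ≤ 2 dim C` -/
theorem dim_le_two_mul [FiniteDimensional K V] (h : TK Q φ g m) {A C : Submodule K V} {u : V} (hu : u ≠ 0)
    (hA : ∀ x ∈ A, (∀ y ∈ A, polar Q x y = 0) → x = 0) (hm : ∀ x ∈ A, m u x ∈ C) :
    finrank K A ≤ 2 * finrank K C := by
  let K0 : Submodule K A :=
    { carrier := {x | m u x = 0}
      zero_mem' := h.zero_right u
      add_mem' := fun {x y} hx hy => by
        change m u ((x : V) + y) = 0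
        rw [h.add_right, show m u (x : V) = 0 from hx, show m u (y : V) = 0 from hy, add_zero]
      smul_mem' := fun k x hx => by
        change m u (k • (x : V)) = 0
        rw [h.smul_right, show m u (x : V) = 0 from hx, smul_zero] }
  obtain ⟨B, hB⟩ := Submodule.exists_isCompl K0
  have h1 : finrank K B ≤ finrank K C := by
    refine semi_finrank_le (K := K) (ψ := φ) (fun x : B => (⟨m u (x : A), hm _ (x : A).2⟩ : C))
      (fun x y => Subtype.ext (h.add_right _ _ _)) (fun k x => Subtype.ext (h.smul_right _ _ _)) (fun x hx => ?_)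
    have h2 : (x : A) ∈ K0 := congrArg Subtype.val hx
    have h3 := hB.disjoint.le_bot ⟨h2, x.2⟩
    exact Subtype.ext h3
  have h2 : finrank K K0 ≤ finrank K B := by
    let f : K0 →ₗ[K] Module.Dual K B :=
      (((Submodule.subtype A).comp (Submodule.subtype B)).dualMap).comp
        ((polarBilin Q).comp ((Submodule.subtype A).comp (Submodule.subtype K0)))
    have hf : Function.Injective f := by
      rw [injective_iff_map_eq_zero]
      intro x hx
      apply Subtype.ext
      apply Subtype.ext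
      refine hA _ (x : A).2 (fun y hy => ?_)
      obtain ⟨k, hk, c, hc, hkc⟩ : ∃ k ∈ K0, ∃ c ∈ B, k + c = ⟨y, hy⟩ := by
        have : (⟨y, hy⟩ : A) ∈ K0 ⊔ B := by rw [hB.sup_eq_top]; exact Submodule.mem_top
        exact Submodule.mem_sup.1 this
      have e1 : polar Q ((x : A) : V) (c : V) = 0 := congrArg (fun w : Module.Dual K B => w ⟨c, hc⟩) hx
      have e2 : polar Q ((x : A) : V) (k : V) = 0 := h.sing_left hu x.2 hk
      have e3 : (k : V) + c = y := congrArg Subtype.val hkc
      rw [← e3, polar_add_right, e1, e2, add_zero]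
    have h3 := LinearMap.finrank_le_finrank_of_injective hf
    rwa [Subspace.dual_finrank_eq] at h3
  have h3 := Submodule.finrank_add_eq_of_isCompl hB
  omega

end Cfsg.Agent.H256.RC
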